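import Mathlib
import Cfsg.Agent.Lib.Helper73.SY.Defs

set_option autoImplicit false

/-! Project SY (S2221), package M3: without tail and with at least two big orbits the even
part of `Q` is indecomposable. -/

namespace Cfsg.Agent.Lib.Helper34.SY

open Equiv Cfsg.Agent.Lib.Helper73.SY

/-! ### General group lemmas -/

/-- Elements of the join of two elementwise commuting subgroups are products. -/
theorem mem_sup_commute {G : Type*} [Group G] (S₁ S₂ : Subgroup G)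
    (hcomm : ∀ a ∈ S₁, ∀ b ∈ S₂, a * b = b * a) {p : G} (hp : p ∈ S₁ ⊔ S₂) :
    ∃ s₁ ∈ S₁, ∃ s₂ ∈ S₂, p = s₁ * s₂ := by
  rw [Subgroup.sup_eq_closure] at hp
  induction hp using Subgroup.closure_induction with
  | mem x hx =>
    rcases hx with hx | hx
    · exact ⟨x, hx, 1, S₂.one_mem, (mul_one x).symm⟩
    · exact ⟨1, S₁.one_mem, x, hx, (one_mul x).symm⟩
  | one => exact ⟨1, S₁.one_mem, 1, S₂.one_mem, (mul_one 1).symm⟩
  | mul x y _ _ hx hy =>
    obtain ⟨a, ha, b, hb, rfl⟩ := hx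
    obtain ⟨a', ha', b', hb', rfl⟩ := hy
    refine ⟨a * a', S₁.mul_mem ha ha', b * b', S₂.mul_mem hb hb', ?_⟩
    have := hcomm a' ha' b hb
    calc a * b * (a' * b') = a * (b * a') * b' := by group
      _ = a * (a' * b) * b' := by rw [this]
      _ = a * a' * (b * b') := by group
  | inv x _ hx =>
    obtain ⟨a, ha, b, hb, rfl⟩ := hx
    refine ⟨a⁻¹, S₁.inv_mem ha, b⁻¹, S₂.inv_mem hb, ?_⟩
    have := hcomm a ha b hb
    rw [this, mul_inv_rev]

/-- A nontrivial subgroup `N` of a finite `p`-group `W` normalized by `W` contains a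
nontrivial element centralized by `W`. -/
theorem exists_central_of_normal {G : Type*} [Group G] [Finite G] {p : ℕ} [Fact p.Prime]
    (W N : Subgroup G) (hW : IsPGroup p ↥W) (hNW : N ≤ W)
    (hnorm : ∀ w ∈ W, ∀ n ∈ N, w * n * w⁻¹ ∈ N) (hN : N ≠ ⊥) :
    ∃ z ∈ N, z ≠ 1 ∧ ∀ w ∈ W, z * w = w * z := by
  classical
  let _ : MulAction ↥W ↥N :=
    { smul := fun w n => ⟨(w : G) * n * (w : G)⁻¹, hnorm w w.2 n n.2⟩
      one_smul := fun n => by
        apply Subtype.ext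
        show ((1 : ↥W) : G) * n * ((1 : ↥W) : G)⁻¹ = n
        simp
      mul_smul := fun w w' n => by
        apply Subtype.ext
        show ((w * w' : ↥W) : G) * n * ((w * w' : ↥W) : G)⁻¹ =
          (w : G) * ((w' : G) * n * (w' : G)⁻¹) * (w : G)⁻¹
        simp [mul_assoc] }
  have hNp : IsPGroup p ↥N := hW.to_le hNW
  have : Nontrivial ↥N := (Subgroup.nontrivial_iff_ne_bot N).mpr hN
  obtain ⟨n, hn0, hn⟩ := hNp.nontrivial_iff_card.mp inferInstance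
  have hdvd : p ∣ Nat.card ↥N := hn ▸ dvd_pow_self p (ne_of_gt hn0)
  have h1 : (1 : ↥N) ∈ MulAction.fixedPoints ↥W ↥N := by
    intro w
    apply Subtype.ext
    show (w : G) * ((1 : ↥N) : G) * (w : G)⁻¹ = ((1 : ↥N) : G)
    simp
  obtain ⟨b, hb, hb1⟩ := hW.exists_fixed_point_of_prime_dvd_card_of_fixed_point ↥N hdvd h1
  refine ⟨b, b.2, fun h => hb1 (Subtype.ext h.symm), fun w hw => ?_⟩
  have := hb ⟨w, hw⟩
  have h2 : w * (b : G) * w⁻¹ = b := congrArg Subtype.val this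
  calc (b : G) * w = (w * b * w⁻¹) * w := by rw [h2]
    _ = w * b := by group

/-! ### Restriction of a permutation to an invariant finite set -/

section Res

variable {α : Type} [DecidableEq α]

/-- `q` preserves `O`. -/
def Pres (O : Finset α) (q : Perm α) : Prop := ∀ x, q x ∈ O ↔ x ∈ O

/-- `q` fixes every point outside `O`. -/
def Supp (O : Finset α) (q : Perm α) : Prop := ∀ x, x ∉ O → q x = x

/-- The restriction of `q` to `O`, extended by the identity (and `1` if `q` does not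
preserve `O`). -/
noncomputable def res (O : Finset α) (q : Perm α) : Perm α :=
  @dite _ (∀ x, q x ∈ O ↔ x ∈ O) (Classical.propDecidable _)
    (fun h => Perm.ofSubtype (q.subtypePerm (p := fun x => x ∈ O) h)) (fun _ => 1)

theorem res_mem {O : Finset α} {q : Perm α} (h : Pres O q) {x : α} (hx : x ∈ O) :
    res O q x = q x := by
  unfold res
  rw [dif_pos (show ∀ x, q x ∈ O ↔ x ∈ O from h)]
  exact Perm.ofSubtype_subtypePerm_of_mem h hx

theorem res_not_mem (O : Finset α) (q : Perm α) {x : α} (hx : x ∉ O) : res O q x = x := by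
  unfold res
  split_ifs with h
  · exact Perm.ofSubtype_subtypePerm_of_not_mem h hx
  · rfl

theorem pres_one (O : Finset α) : Pres O (1 : Perm α) := fun _ => Iff.rfl

theorem pres_mul {O : Finset α} {q₁ q₂ : Perm α} (h₁ : Pres O q₁) (h₂ : Pres O q₂) :
    Pres O (q₁ * q₂) := fun x => by rw [Perm.mul_apply, h₁, h₂]

theorem pres_inv {O : Finset α} {q : Perm α} (h : Pres O q) : Pres O q⁻¹ := fun x => by
  rw [← h (q⁻¹ x)]; simp

theorem res_mul {O : Finset α} {q₁ q₂ : Perm α} (h₁ : Pres O q₁) (h₂ : Pres O q₂) :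
    res O (q₁ * q₂) = res O q₁ * res O q₂ := by
  ext x
  by_cases hx : x ∈ O
  · rw [res_mem (pres_mul h₁ h₂) hx, Perm.mul_apply, Perm.mul_apply, res_mem h₂ hx,
      res_mem h₁ ((h₂ x).mpr hx)]
  · rw [res_not_mem _ _ hx, Perm.mul_apply, res_not_mem _ _ hx, res_not_mem _ _ hx]

theorem res_one (O : Finset α) : res O (1 : Perm α) = 1 := by
  ext x
  by_cases hx : x ∈ O
  · rw [res_mem (pres_one O) hx]
  · rw [res_not_mem _ _ hx]; rfl

theorem res_inv {O : Finset α} {q : Perm α} (h : Pres O q) : res O q⁻¹ = (res O q)⁻¹ := by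
  rw [eq_inv_iff_mul_eq_one, ← res_mul (pres_inv h) h, inv_mul_cancel, res_one]

theorem supp_pres {O : Finset α} {q : Perm α} (h : Supp O q) : Pres O q := by
  intro x
  constructor
  · intro hqx
    by_contra hx
    rw [h x hx] at hqx
    exact hx hqx
  · intro hx
    by_contra hqx
    have h1 := h (q x) hqx
    have h2 := q.injective h1
    rw [h2] at hqx
    exact hqx hx

theorem res_of_supp {O : Finset α} {q : Perm α} (h : Supp O q) : res O q = q := by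
  ext x
  by_cases hx : x ∈ O
  · rw [res_mem (supp_pres h) hx]
  · rw [res_not_mem _ _ hx, h x hx]

theorem res_eq_one_of_fix {O : Finset α} {q : Perm α} (h : ∀ x ∈ O, q x = x) :
    res O q = 1 := by
  have hp : Pres O q := by
    intro x
    constructor
    · intro hqx
      have h1 := h (q x) hqx
      have h2 := q.injective h1
      rw [h2] at hqx
      exact hqx
    · intro hx
      rw [h x hx]; exact hx
  ext x
  by_cases hx : x ∈ O
  · rw [res_mem hp hx, h x hx]; rfl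
  · rw [res_not_mem _ _ hx]; rfl

theorem supp_res (O : Finset α) (q : Perm α) : Supp O (res O q) :=
  fun _ hx => res_not_mem O q hx

theorem supp_swap {O : Finset α} {a b : α} (ha : a ∈ O) (hb : b ∈ O) : Supp O (swap a b) := by
  intro x hx
  exact Equiv.swap_apply_of_ne_of_ne (fun h => hx (h ▸ ha)) (fun h => hx (h ▸ hb))

theorem res_supp_disjoint {O O' : Finset α} (hd : Disjoint O O') {q : Perm α}
    (hq : Supp O' q) : res O q = 1 :=
  res_eq_one_of_fix (fun x hx => hq x (Finset.disjoint_left.mp hd hx))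

/-- The elements of `Q` fixing every point outside `O`. -/
def wPart (Q : Subgroup (Perm α)) (O : Finset α) : Subgroup (Perm α) where
  carrier := {w | w ∈ Q ∧ Supp O w}
  mul_mem' := by
    rintro a b ⟨ha, ha'⟩ ⟨hb, hb'⟩
    exact ⟨Q.mul_mem ha hb, fun x hx => by rw [Perm.mul_apply, hb' x hx, ha' x hx]⟩
  one_mem' := ⟨Q.one_mem, fun _ _ => rfl⟩
  inv_mem' := by
    rintro a ⟨ha, ha'⟩
    exact ⟨Q.inv_mem ha, fun x hx => by rw [Perm.inv_eq_iff_eq, ha' x hx]⟩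

/-- The image of `S` under restriction to `O`. -/
def resImg (O : Finset α) (S : Subgroup (Perm α)) (hS : ∀ s ∈ S, Pres O s) :
    Subgroup (Perm α) where
  carrier := {w | ∃ s ∈ S, res O s = w}
  mul_mem' := by
    rintro _ _ ⟨s, hs, rfl⟩ ⟨t, ht, rfl⟩
    exact ⟨s * t, S.mul_mem hs ht, res_mul (hS s hs) (hS t ht)⟩
  one_mem' := ⟨1, S.one_mem, res_one O⟩
  inv_mem' := by
    rintro _ ⟨s, hs, rfl⟩
    exact ⟨s⁻¹, S.inv_mem hs, res_inv (hS s hs)⟩

/-- An element of `Q` all of whose restrictions lie in `H` lies in `H`. -/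
theorem decomp (Q : Subgroup (Perm α)) (𝒪 : Finset (Finset α))
    (hdisj : ∀ O ∈ 𝒪, ∀ O' ∈ 𝒪, O ≠ O' → Disjoint O O')
    (hfix : ∀ q ∈ Q, ∀ x, (∀ O ∈ 𝒪, x ∉ O) → q x = x)
    (hpres : ∀ q ∈ Q, ∀ O ∈ 𝒪, Pres O q)
    (hres : ∀ q ∈ Q, ∀ O ∈ 𝒪, res O q ∈ Q)
    (H : Subgroup (Perm α)) :
    ∀ I : Finset (Finset α), I ⊆ 𝒪 → ∀ q ∈ Q, (∀ O ∈ 𝒪, O ∉ I → res O q = 1) →
      (∀ O ∈ I, res O q ∈ H) → q ∈ H := by
  intro I
  induction I using Finset.induction_on with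
  | empty =>
    intro _ q hq h1 _
    have : q = 1 := by
      ext x
      by_cases hx : ∀ O ∈ 𝒪, x ∉ O
      · rw [hfix q hq x hx]; rfl
      · simp only [not_forall, not_not] at hx
        obtain ⟨O, hO, hxO⟩ := hx
        have := h1 O hO (Finset.notMem_empty O)
        rw [← res_mem (hpres q hq O hO) hxO, this]
    rw [this]; exact H.one_mem
  | insert O I hOI ih =>
    intro hsub q hq h1 h2
    have hO𝒪 : O ∈ 𝒪 := hsub (Finset.mem_insert_self O I)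
    have hI𝒪 : I ⊆ 𝒪 := fun X hX => hsub (Finset.mem_insert_of_mem hX)
    have hrQ : res O q ∈ Q := hres q hq O hO𝒪
    have hrH : res O q ∈ H := h2 O (Finset.mem_insert_self O I)
    have hq' : (res O q)⁻¹ * q ∈ Q := Q.mul_mem (Q.inv_mem hrQ) hq
    have key : ∀ O' ∈ 𝒪, res O' ((res O q)⁻¹ * q) = if O' = O then 1 else res O' q := by
      intro O' hO'
      rw [res_mul (pres_inv (hpres _ hrQ O' hO')) (hpres q hq O' hO'),
        res_inv (hpres _ hrQ O' hO')]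
      split_ifs with h
      · subst h
        rw [res_of_supp (supp_res _ q)]
        exact inv_mul_cancel _
      · have : res O' (res O q) = 1 :=
          res_supp_disjoint (hdisj O' hO' O hO𝒪 h) (supp_res O q)
        rw [this, inv_one, one_mul]
    have hmem : (res O q)⁻¹ * q ∈ H := by
      apply ih hI𝒪 _ hq'
      · intro O' hO' hO'I
        rw [key O' hO']
        split_ifs with h
        · rfl
        · exact h1 O' hO' (by simp [h, hO'I])
      · intro O' hO'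
        have hne : O' ≠ O := fun h => hOI (h ▸ hO')
        rw [key O' (hI𝒪 hO'), if_neg hne]
        exact h2 O' (Finset.mem_insert_of_mem hO')
    have : q = res O q * ((res O q)⁻¹ * q) := by group
    rw [this]; exact H.mul_mem hrH hmem

end Res

/-! ### The context -/

section Main

variable {α : Type} [Fintype α] [DecidableEq α]

/-- The data provided by package ZW for the part of `Q` on `O`. -/
def ZData (Q : Subgroup (Perm α)) (O : Finset α) (z : Perm α) : Prop :=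
  z ∈ wPart Q O ∧ Perm.sign z = 1 ∧ z ≠ 1 ∧ (∀ w ∈ wPart Q O, z * w = w * z) ∧
    ∀ z' ∈ wPart Q O, (∀ w ∈ wPart Q O, z' * w = w * z') → z' = 1 ∨ z' = z

/-- The hypotheses on `Q` and `𝒪` (no tail, at least two orbits). -/
structure Ctx (Q : Subgroup (Perm α)) (𝒪 : Finset (Finset α)) : Prop where
  hQ2 : IsPGroup 2 ↥Q
  hdisj : ∀ O ∈ 𝒪, ∀ O' ∈ 𝒪, O ≠ O' → Disjoint O O'
  hfix : ∀ q ∈ Q, ∀ x, (∀ O ∈ 𝒪, x ∉ O) → q x = x
  hpres : ∀ q ∈ Q, ∀ O ∈ 𝒪, Pres O q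
  hres : ∀ q ∈ Q, ∀ O ∈ 𝒪, res O q ∈ Q
  hcyc : ∀ O ∈ 𝒪, ∃ c ∈ Q, FullCycle c O
  hswap : ∀ O ∈ 𝒪, ∃ a ∈ O, ∃ b ∈ O, a ≠ b ∧ swap a b ∈ Q
  htwo : 2 ≤ 𝒪.card
  hzd : ∀ O ∈ 𝒪, ∃ z, ZData Q O z

/-- The even part of `Q` is the commuting product of `S₁` and `S₂` with trivial
intersection. -/
structure DecCtx (Q S₁ S₂ : Subgroup (Perm α)) : Prop where
  h₁ : S₁ ≤ Q ⊓ alternatingGroup α
  h₂ : S₂ ≤ Q ⊓ alternatingGroup α
  hcomm : ∀ a ∈ S₁, ∀ b ∈ S₂, a * b = b * a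
  hinf : S₁ ⊓ S₂ = ⊥
  hsup : S₁ ⊔ S₂ = Q ⊓ alternatingGroup α

variable {Q S₁ S₂ : Subgroup (Perm α)} {𝒪 : Finset (Finset α)}

theorem DecCtx.symm (D : DecCtx Q S₁ S₂) : DecCtx Q S₂ S₁ :=
  ⟨D.h₂, D.h₁, fun a ha b hb => (D.hcomm b hb a ha).symm, by rw [inf_comm]; exact D.hinf,
    by rw [sup_comm]; exact D.hsup⟩

/-- The part of `Q` on `O` is covered by the restrictions of `S`. -/
def Big (Q : Subgroup (Perm α)) (O : Finset α) (S : Subgroup (Perm α)) : Prop :=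
  ∀ w ∈ wPart Q O, ∃ s ∈ S, res O s = w

theorem surj_even (C : Ctx Q 𝒪) {O : Finset α} (hO : O ∈ 𝒪) {w : Perm α}
    (hw : w ∈ wPart Q O) : ∃ p ∈ Q ⊓ alternatingGroup α, res O p = w := by
  rcases Int.units_eq_one_or (Perm.sign w) with h | h
  · exact ⟨w, ⟨hw.1, Perm.mem_alternatingGroup.mpr h⟩, res_of_supp hw.2⟩
  · obtain ⟨O', hO', hne⟩ := Finset.exists_mem_ne C.htwo O
    obtain ⟨a, ha, b, hb, hab, hτ⟩ := C.hswap O' hO'
    refine ⟨w * swap a b, ⟨Q.mul_mem hw.1 hτ, Perm.mem_alternatingGroup.mpr ?_⟩, ?_⟩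
    · rw [Perm.sign_mul, h, Perm.sign_swap hab]; rfl
    · rw [res_mul (supp_pres hw.2) (C.hpres _ hτ O hO), res_of_supp hw.2,
        res_supp_disjoint (C.hdisj O hO O' hO' hne.symm) (supp_swap ha hb), mul_one]

theorem big_or (hCI : LemCI) (C : Ctx Q 𝒪) (D : DecCtx Q S₁ S₂) {O : Finset α}
    (hO : O ∈ 𝒪) : Big Q O S₁ ∨ Big Q O S₂ := by
  have hp₁ : ∀ s ∈ S₁, Pres O s := fun s hs => C.hpres s (D.h₁ hs).1 O hO
  have hp₂ : ∀ s ∈ S₂, Pres O s := fun s hs => C.hpres s (D.h₂ hs).1 O hO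
  obtain ⟨c, hcQ, hc⟩ := C.hcyc O hO
  have key := hCI α (wPart Q O) (resImg O S₁ hp₁) (resImg O S₂ hp₂) O c
    (C.hQ2.to_le (fun w hw => hw.1)) (fun w hw => hw.2) ⟨hcQ, hc.1⟩ hc
    (by rintro _ ⟨s, hs, rfl⟩; exact ⟨C.hres s (D.h₁ hs).1 O hO, supp_res O s⟩)
    (by rintro _ ⟨s, hs, rfl⟩; exact ⟨C.hres s (D.h₂ hs).1 O hO, supp_res O s⟩)
    (by
      rintro _ ⟨s, hs, rfl⟩ _ ⟨t, ht, rfl⟩
      rw [← res_mul (hp₁ s hs) (hp₂ t ht), ← res_mul (hp₂ t ht) (hp₁ s hs),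
        D.hcomm s hs t ht])
    (by
      intro w hw
      obtain ⟨p, hp, rfl⟩ := surj_even C hO hw
      rw [← D.hsup] at hp
      obtain ⟨s₁, hs₁, s₂, hs₂, rfl⟩ := mem_sup_commute S₁ S₂ D.hcomm hp
      exact ⟨res O s₁, ⟨s₁, hs₁, rfl⟩, res O s₂, ⟨s₂, hs₂, rfl⟩,
        res_mul (hp₁ s₁ hs₁) (hp₂ s₂ hs₂)⟩)
  rcases key with h | h
  · exact Or.inl (fun w hw => h hw)
  · exact Or.inr (fun w hw => h hw)

theorem small_central (C : Ctx Q 𝒪) (D : DecCtx Q S₁ S₂) {O : Finset α} (hO : O ∈ 𝒪)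
    (hB : Big Q O S₁) {t : Perm α} (ht : t ∈ S₂) :
    res O t ∈ wPart Q O ∧ ∀ w ∈ wPart Q O, res O t * w = w * res O t := by
  refine ⟨⟨C.hres t (D.h₂ ht).1 O hO, supp_res O t⟩, ?_⟩
  intro w hw
  obtain ⟨s, hs, rfl⟩ := hB w hw
  have hps := C.hpres s (D.h₁ hs).1 O hO
  have hpt := C.hpres t (D.h₂ ht).1 O hO
  rw [← res_mul hpt hps, ← res_mul hps hpt, D.hcomm s hs t ht]

theorem small_sign (C : Ctx Q 𝒪) (D : DecCtx Q S₁ S₂) {O : Finset α} (hO : O ∈ 𝒪)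
    (hB : Big Q O S₁) {t : Perm α} (ht : t ∈ S₂) : Perm.sign (res O t) = 1 := by
  obtain ⟨z, hzW, hzs, hz1, hzc, hzu⟩ := C.hzd O hO
  obtain ⟨h1, h2⟩ := small_central C D hO hB ht
  rcases hzu _ h1 h2 with h | h
  · rw [h]; exact map_one _
  · rw [h]; exact hzs

theorem exists_even_noncentral (C : Ctx Q 𝒪) {O : Finset α} (hO : O ∈ 𝒪) :
    ∃ y ∈ wPart Q O, Perm.sign y = 1 ∧ ∃ w ∈ wPart Q O, y * w ≠ w * y := by
  by_contra hcon
  have hall : ∀ y ∈ wPart Q O, Perm.sign y = 1 → ∀ w ∈ wPart Q O, y * w = w * y := by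
    intro y hy hs w hw
    by_contra hne
    exact hcon ⟨y, hy, hs, w, hw, hne⟩
  obtain ⟨z, hzW, hzs, hz1, hzc, hzu⟩ := C.hzd O hO
  obtain ⟨a, ha, b, hb, hab, hτ⟩ := C.hswap O hO
  have hτW : swap a b ∈ wPart Q O := ⟨hτ, supp_swap ha hb⟩
  have hsτ := Perm.sign_swap hab
  have hτc : ∀ w ∈ wPart Q O, swap a b * w = w * swap a b := by
    intro w hw
    rcases Int.units_eq_one_or (Perm.sign w) with h | h
    · exact (hall w hw h _ hτW).symm
    · have hwτ : w * swap a b ∈ wPart Q O := (wPart Q O).mul_mem hw hτW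
      have hs : Perm.sign (w * swap a b) = 1 := by rw [Perm.sign_mul, h, hsτ]; rfl
      have h1 := hall _ hwτ hs _ hτW
      have h2 : w * swap a b * swap a b = swap a b * w * swap a b := by
        rw [h1]; group
      exact (mul_right_cancel h2).symm
  rcases hzu _ hτW hτc with h | h
  · rw [h, map_one] at hsτ; exact absurd hsτ (by decide)
  · rw [h, hzs] at hsτ; exact absurd hsτ (by decide)

theorem z_mem (C : Ctx Q 𝒪) (D : DecCtx Q S₁ S₂) {O : Finset α} (hO : O ∈ 𝒪)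
    (hB : Big Q O S₁) {z : Perm α} (hz : ZData Q O z) : z ∈ S₁ := by
  obtain ⟨hzW, hzs, hz1, hzc, hzu⟩ := hz
  have : Fact (Nat.Prime 2) := ⟨Nat.prime_two⟩
  have hWp : IsPGroup 2 ↥(wPart Q O) := C.hQ2.to_le (fun w hw => hw.1)
  have conj : ∀ t ∈ S₁, ∀ n ∈ wPart Q O, t * n * t⁻¹ = res O t * n * (res O t)⁻¹ := by
    intro t ht n hn
    have hpt := C.hpres t (D.h₁ ht).1 O hO
    have hsupp : Supp O (t * n * t⁻¹) := by
      intro x hx
      have hx' : t⁻¹ x ∉ O := fun h => hx ((pres_inv hpt x).mp h)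
      simp only [Perm.mul_apply]
      rw [hn.2 _ hx']
      simp
    rw [← res_of_supp hsupp, res_mul (pres_mul hpt (supp_pres hn.2)) (pres_inv hpt),
      res_mul hpt (supp_pres hn.2), res_inv hpt, res_of_supp hn.2]
  have hnorm : ∀ w ∈ wPart Q O, ∀ n ∈ S₁ ⊓ wPart Q O, w * n * w⁻¹ ∈ S₁ ⊓ wPart Q O := by
    intro w hw n hn
    refine ⟨?_, (wPart Q O).mul_mem ((wPart Q O).mul_mem hw hn.2) ((wPart Q O).inv_mem hw)⟩
    obtain ⟨t, ht, rfl⟩ := hB w hw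
    rw [← conj t ht n hn.2]
    exact S₁.mul_mem (S₁.mul_mem ht hn.1) (S₁.inv_mem ht)
  have hne : S₁ ⊓ wPart Q O ≠ ⊥ := by
    obtain ⟨y, hy, hys, w, hw, hyw⟩ := exists_even_noncentral C hO
    obtain ⟨t, ht, rfl⟩ := hB w hw
    have hyP : y ∈ S₁ ⊔ S₂ := by
      rw [D.hsup]; exact ⟨hy.1, Perm.mem_alternatingGroup.mpr hys⟩
    obtain ⟨u₁, hu₁, u₂, hu₂, hy_eq⟩ := mem_sup_commute S₁ S₂ D.hcomm hyP
    have hm₁ : y * t * y⁻¹ * t⁻¹ ∈ S₁ := by
      have e : y * t * y⁻¹ * t⁻¹ = u₁ * t * u₁⁻¹ * t⁻¹ := by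
        have h1 := D.hcomm t ht u₂ hu₂
        calc y * t * y⁻¹ * t⁻¹ = u₁ * (u₂ * t) * u₂⁻¹ * u₁⁻¹ * t⁻¹ := by rw [hy_eq]; group
          _ = u₁ * (t * u₂) * u₂⁻¹ * u₁⁻¹ * t⁻¹ := by rw [h1]
          _ = u₁ * t * u₁⁻¹ * t⁻¹ := by group
      rw [e]
      exact S₁.mul_mem (S₁.mul_mem (S₁.mul_mem hu₁ ht) (S₁.inv_mem hu₁)) (S₁.inv_mem ht)
    have e2 : y * t * y⁻¹ * t⁻¹ = y * (res O t * y⁻¹ * (res O t)⁻¹) := by
      rw [← conj t ht y⁻¹ ((wPart Q O).inv_mem hy)]; group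
    have hm₂ : y * t * y⁻¹ * t⁻¹ ∈ wPart Q O := by
      rw [e2]
      exact (wPart Q O).mul_mem hy ((wPart Q O).mul_mem
        ((wPart Q O).mul_mem hw ((wPart Q O).inv_mem hy)) ((wPart Q O).inv_mem hw))
    have hm1 : y * t * y⁻¹ * t⁻¹ ≠ 1 := by
      intro h
      apply hyw
      rw [e2] at h
      have : y * res O t = (y * (res O t * y⁻¹ * (res O t)⁻¹)) * (res O t * y) := by group
      rw [this, h, one_mul]
    intro hbot
    have : y * t * y⁻¹ * t⁻¹ ∈ S₁ ⊓ wPart Q O := ⟨hm₁, hm₂⟩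
    rw [hbot, Subgroup.mem_bot] at this
    exact hm1 this
  obtain ⟨z', hz'N, hz'1, hz'c⟩ :=
    exists_central_of_normal (wPart Q O) (S₁ ⊓ wPart Q O) hWp inf_le_right hnorm hne
  rcases hzu z' hz'N.2 hz'c with h | h
  · exact absurd h hz'1
  · rw [← h]; exact hz'N.1

theorem other_bot (C : Ctx Q 𝒪) (D : DecCtx Q S₁ S₂) (hall : ∀ O ∈ 𝒪, Big Q O S₁) :
    S₂ = ⊥ := by
  rw [Subgroup.eq_bot_iff_forall]
  intro t ht
  have htQ : t ∈ Q := (D.h₂ ht).1
  have h1 : t ∈ S₁ := by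
    apply decomp Q 𝒪 C.hdisj C.hfix C.hpres C.hres S₁ 𝒪 (Finset.Subset.refl _) t htQ
    · intro O hO hO'; exact absurd hO hO'
    · intro O hO
      obtain ⟨z, hz⟩ := C.hzd O hO
      obtain ⟨h1, h2⟩ := small_central C D hO (hall O hO) ht
      rcases hz.2.2.2.2 _ h1 h2 with h | h
      · rw [h]; exact S₁.one_mem
      · rw [h]; exact z_mem C D hO (hall O hO) hz
  have h2 : t ∈ S₁ ⊓ S₂ := ⟨h1, ht⟩
  rw [D.hinf, Subgroup.mem_bot] at h2
  exact h2

theorem mixed_false (C : Ctx Q 𝒪) (D : DecCtx Q S₁ S₂)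
    (htype : ∀ O ∈ 𝒪, Big Q O S₁ ∨ Big Q O S₂) {O₁ O₂ : Finset α} (hO₁ : O₁ ∈ 𝒪)
    (hO₂ : O₂ ∈ 𝒪) (hne : O₁ ≠ O₂) (hB₁ : Big Q O₁ S₁) (hB₂ : Big Q O₂ S₂) : False := by
  obtain ⟨a₁, ha₁, b₁, hb₁, hab₁, hτ₁⟩ := C.hswap O₁ hO₁
  obtain ⟨a₂, ha₂, b₂, hb₂, hab₂, hτ₂⟩ := C.hswap O₂ hO₂
  have hs₁ : Perm.sign (swap a₁ b₁) = -1 := Perm.sign_swap hab₁
  have hs₂ : Perm.sign (swap a₂ b₂) = -1 := Perm.sign_swap hab₂
  have hqP : swap a₁ b₁ * swap a₂ b₂ ∈ S₁ ⊔ S₂ := by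
    rw [D.hsup]
    refine ⟨Q.mul_mem hτ₁ hτ₂, Perm.mem_alternatingGroup.mpr ?_⟩
    rw [Perm.sign_mul, hs₁, hs₂]; rfl
  obtain ⟨s₁, hs₁S, s₂, hs₂S, hq⟩ := mem_sup_commute S₁ S₂ D.hcomm hqP
  have hs₁Q : s₁ ∈ Q := (D.h₁ hs₁S).1
  have hs₂Q : s₂ ∈ Q := (D.h₂ hs₂S).1
  have hsupp₁ : Supp O₁ (swap a₁ b₁) := supp_swap ha₁ hb₁
  have hsupp₂ : Supp O₂ (swap a₂ b₂) := supp_swap ha₂ hb₂
  have hev : ∀ O ∈ 𝒪, res O (swap a₁ b₁ * s₁) ∈ alternatingGroup α := by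
    intro O hO
    rw [Perm.mem_alternatingGroup, res_mul (C.hpres _ hτ₁ O hO) (C.hpres _ hs₁Q O hO),
      Perm.sign_mul]
    have hqO : res O (swap a₁ b₁) * res O (swap a₂ b₂) = res O s₁ * res O s₂ := by
      rw [← res_mul (C.hpres _ hτ₁ O hO) (C.hpres _ hτ₂ O hO),
        ← res_mul (C.hpres _ hs₁Q O hO) (C.hpres _ hs₂Q O hO), hq]
    by_cases h1 : O = O₁
    · have hBO : Big Q O S₁ := by rw [h1]; exact hB₁
      have e1 : res O (swap a₁ b₁) = swap a₁ b₁ := by rw [h1]; exact res_of_supp hsupp₁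
      have e2 : res O (swap a₂ b₂) = 1 :=
        res_supp_disjoint (C.hdisj O hO O₂ hO₂ (by rw [h1]; exact hne)) hsupp₂
      have e3 : Perm.sign (res O s₂) = 1 := small_sign C D hO hBO hs₂S
      rw [e1, e2, mul_one] at hqO
      have h3 : Perm.sign (swap a₁ b₁) = Perm.sign (res O s₁) * Perm.sign (res O s₂) := by
        rw [← Perm.sign_mul, ← hqO]
      rw [e3, mul_one, hs₁] at h3
      rw [e1, hs₁, ← h3]; rfl
    · have e1 : res O (swap a₁ b₁) = 1 :=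
        res_supp_disjoint (C.hdisj O hO O₁ hO₁ h1) hsupp₁
      rw [e1, map_one, one_mul]
      by_cases h2 : O = O₂
      · have hBO : Big Q O S₂ := by rw [h2]; exact hB₂
        exact small_sign C D.symm hO hBO hs₁S
      · have e2 : res O (swap a₂ b₂) = 1 :=
          res_supp_disjoint (C.hdisj O hO O₂ hO₂ h2) hsupp₂
        rw [e1, e2, mul_one] at hqO
        rcases htype O hO with hB | hB
        · have e3 : Perm.sign (res O s₂) = 1 := small_sign C D hO hB hs₂S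
          have h3 : Perm.sign (1 : Perm α) = Perm.sign (res O s₁) * Perm.sign (res O s₂) := by
            rw [← Perm.sign_mul, ← hqO]
          rw [e3, mul_one, map_one] at h3
          exact h3.symm
        · exact small_sign C D.symm hO hB hs₁S
  have hmem : swap a₁ b₁ * s₁ ∈ alternatingGroup α := by
    apply decomp Q 𝒪 C.hdisj C.hfix C.hpres C.hres (alternatingGroup α) 𝒪
      (Finset.Subset.refl _) _ (Q.mul_mem hτ₁ hs₁Q)
    · intro O hO hO'; exact absurd hO hO'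
    · exact hev
  rw [Perm.mem_alternatingGroup, Perm.sign_mul, hs₁,
    Perm.mem_alternatingGroup.mp (D.h₁ hs₁S).2] at hmem
  exact absurd hmem (by decide)

theorem lemIndMany_of (hZ : LemZW) (hC : LemCI) : LemIndMany := by
  intro α _ _ Q 𝒪 T hS hT h2 hDec
  obtain ⟨hQ2, hdisj, hdT, hfix, hpres, hrestr, hO, hTT⟩ := hS
  subst hT
  have hpres' : ∀ q ∈ Q, ∀ O ∈ 𝒪, Pres O q := by
    intro q hq O hO' x
    constructor
    · intro h
      have := hpres q⁻¹ (Q.inv_mem hq) O hO' (q x) h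
      simpa using this
    · exact hpres q hq O hO' x
  have hres : ∀ q ∈ Q, ∀ O ∈ 𝒪, res O q ∈ Q := by
    intro q hq O hO'
    obtain ⟨q', hq', h1, h2⟩ := hrestr q hq O hO'
    have : res O q = q' := by
      ext x
      by_cases hx : x ∈ O
      · rw [res_mem (hpres' q hq O hO') hx, h1 x hx]
      · rw [res_not_mem O q hx, h2 x hx]
    rw [this]; exact hq'
  have hzd : ∀ O ∈ 𝒪, ∃ z, ZData Q O z := by
    intro O hO'
    obtain ⟨h4, ⟨c, hcQ, hc⟩, a, haO, b, hbO, hab, hτQ⟩ := hO O hO'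
    obtain ⟨z, hz⟩ := hZ α (wPart Q O) O c a b (hQ2.to_le (fun w hw => hw.1))
      (fun w hw => hw.2) ⟨hcQ, hc.1⟩ hc h4 haO hbO hab ⟨hτQ, supp_swap haO hbO⟩
    exact ⟨z, hz⟩
  have C : Ctx Q 𝒪 :=
    { hQ2 := hQ2
      hdisj := hdisj
      hfix := fun q hq x hx => hfix q hq x (Finset.notMem_empty x) hx
      hpres := hpres'
      hres := hres
      hcyc := fun O hO' => (hO O hO').2.1
      hswap := fun O hO' => (hO O hO').2.2
      htwo := h2
      hzd := hzd }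
  obtain ⟨S₁, S₂, hS₁ne, hS₂ne, hS₁, hS₂, hcomm, hinf, hsup⟩ := hDec
  have D : DecCtx Q S₁ S₂ := ⟨hS₁, hS₂, hcomm, hinf, hsup⟩
  have htype : ∀ O ∈ 𝒪, Big Q O S₁ ∨ Big Q O S₂ := fun O hO' => big_or hC C D hO'
  by_cases hall₁ : ∀ O ∈ 𝒪, Big Q O S₁
  · exact hS₂ne (other_bot C D hall₁)
  by_cases hall₂ : ∀ O ∈ 𝒪, Big Q O S₂
  · exact hS₁ne (other_bot C D.symm hall₂)
  simp only [not_forall] at hall₁ hall₂
  obtain ⟨O₂, hO₂, hnB₂⟩ := hall₁
  obtain ⟨O₁, hO₁, hnB₁⟩ := hall₂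
  have hB₂ : Big Q O₂ S₂ := (htype O₂ hO₂).resolve_left hnB₂
  have hB₁ : Big Q O₁ S₁ := (htype O₁ hO₁).resolve_right hnB₁
  have hne : O₁ ≠ O₂ := by
    intro h; rw [h] at hB₁; exact hnB₂ hB₁
  exact mixed_false C D htype hO₁ hO₂ hne hB₁ hB₂

end Main

end Cfsg.Agent.Lib.Helper34.SY
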