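import Mathlib
import Cfsg.Agent.Lib.Helper73.SY.Defs

set_option autoImplicit false

/-! Project SY (S2221), package M4: without tail and with a single big orbit of at least
eight points the even part of `Q` is indecomposable. -/

namespace Cfsg.Agent.Lib.Helper34.SY

open Equiv Cfsg.Agent.Lib.Helper73.SY

/-- A central element of the even part commutes with an odd transposition of `Q`, provided
`Q` has an element acting transitively on a set of at least eight points outside of which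
`Q` acts trivially. -/
theorem indOne_key {α : Type} [Fintype α] [DecidableEq α] (Q : Subgroup (Perm α))
    (O : Finset α) (c : Perm α) (a b : α)
    (hfixO : ∀ w ∈ Q, ∀ x, x ∉ O → w x = x) (hcQ : c ∈ Q) (hc : FullCycle c O)
    (h8 : 8 ≤ O.card) (hab : a ≠ b) (hτQ : swap a b ∈ Q)
    (ζ : Perm α) (hζ : ζ ∈ Q ⊓ alternatingGroup α)
    (hζc : ∀ p ∈ Q ⊓ alternatingGroup α, ζ * p = p * ζ) :
    ∀ q ∈ Q, ζ * q = q * ζ := by
  classical
  set τ : Perm α := swap a b with hτ
  have hττ : τ * τ = 1 := Equiv.swap_mul_self a b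
  have hsτ : Perm.sign τ = -1 := Perm.sign_swap hab
  have hζQ : ζ ∈ Q := hζ.1
  have hsζ : Perm.sign ζ = 1 := Perm.mem_alternatingGroup.mp hζ.2
  have hmemP : ∀ p : Perm α, p ∈ Q → Perm.sign p = 1 → p ∈ Q ⊓ alternatingGroup α :=
    fun p hp hs => ⟨hp, Perm.mem_alternatingGroup.mpr hs⟩
  -- every element of `Q` is even or becomes even after multiplying with `τ`
  have hsplit : ∀ q ∈ Q, q ∈ Q ⊓ alternatingGroup α ∨ q * τ ∈ Q ⊓ alternatingGroup α := by
    intro q hq
    rcases Int.units_eq_one_or (Perm.sign q) with h | h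
    · exact Or.inl (hmemP q hq h)
    · right
      refine hmemP _ (Q.mul_mem hq hτQ) ?_
      rw [Perm.sign_mul, h, hsτ]; rfl
  -- the commutator
  set d : Perm α := τ * ζ * τ * ζ⁻¹ with hd
  have hdQ : d ∈ Q := Q.mul_mem (Q.mul_mem (Q.mul_mem hτQ hζQ) hτQ) (Q.inv_mem hζQ)
  have hτd : τ * d * τ = d⁻¹ := by
    have h1 : τ⁻¹ = τ := by
      rw [inv_eq_iff_mul_eq_one]; exact hττ
    rw [hd]
    simp only [mul_inv_rev, inv_inv, h1]
    calc τ * (τ * ζ * τ * ζ⁻¹) * τ = (τ * τ) * ζ * τ * ζ⁻¹ * τ := by group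
      _ = ζ * τ * ζ⁻¹ * τ := by rw [hττ, one_mul]
  have hdc : ∀ p ∈ Q ⊓ alternatingGroup α, d * p = p * d := by
    intro p hp
    have hp' : τ * p * τ ∈ Q ⊓ alternatingGroup α := by
      refine hmemP _ (Q.mul_mem (Q.mul_mem hτQ hp.1) hτQ) ?_
      rw [Perm.sign_mul, Perm.sign_mul, hsτ, Perm.mem_alternatingGroup.mp hp.2]; rfl
    have e1 : ζ * p = p * ζ := hζc p hp
    have e2 : ζ * (τ * p * τ) = (τ * p * τ) * ζ := hζc _ hp'
    have e3 : ζ⁻¹ * p = p * ζ⁻¹ := by
      have : p = ζ * p * ζ⁻¹ := by rw [e1]; group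
      calc ζ⁻¹ * p = ζ⁻¹ * (ζ * p * ζ⁻¹) := by rw [← this]
        _ = p * ζ⁻¹ := by group
    calc d * p = τ * ζ * τ * (ζ⁻¹ * p) := by rw [hd]; group
      _ = τ * ζ * τ * (p * ζ⁻¹) := by rw [e3]
      _ = τ * ζ * τ * p * (τ * τ) * ζ⁻¹ := by rw [hττ]; group
      _ = τ * (ζ * (τ * p * τ)) * τ * ζ⁻¹ := by group
      _ = τ * ((τ * p * τ) * ζ) * τ * ζ⁻¹ := by rw [e2]
      _ = (τ * τ) * p * (τ * ζ * τ * ζ⁻¹) := by group
      _ = p * d := by rw [hττ, one_mul]
  -- the moved points of `d` are permuted by `Q`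
  have hDP : ∀ p ∈ Q ⊓ alternatingGroup α, ∀ x, d x ≠ x → d (p x) ≠ p x := by
    intro p hp x hx h
    apply hx
    have : (d * p) x = (p * d) x := by rw [hdc p hp]
    simp only [Perm.mul_apply] at this
    rw [h] at this
    exact (p.injective this).symm
  have hDτ : ∀ x, d x ≠ x → d (τ x) ≠ τ x := by
    intro x hx h
    apply hx
    have h2 : (τ * d * τ) x = x := by
      simp only [Perm.mul_apply]
      rw [h]
      have : (τ * τ) x = x := by rw [hττ]; rfl
      simpa [Perm.mul_apply] using this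
    rw [hτd] at h2
    have : d (d⁻¹ x) = d x := by rw [h2]
    simpa using this.symm
  have hDQ : ∀ q ∈ Q, ∀ x, d x ≠ x → d (q x) ≠ q x := by
    intro q hq x hx
    rcases hsplit q hq with h | h
    · exact hDP q h x hx
    · have h1 := hDP _ h (τ x) (hDτ x hx)
      have : (q * τ) (τ x) = q x := by
        simp only [Perm.mul_apply]
        have : (τ * τ) x = x := by rw [hττ]; rfl
        simp only [Perm.mul_apply] at this
        rw [this]
      rwa [this] at h1
  -- the moved points of `d` lie in a set of four points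
  have hDsub : ∀ x, d x ≠ x → x ∈ ({a, b, ζ a, ζ b} : Finset α) := by
    intro x hx
    by_contra hmem
    simp only [Finset.mem_insert, Finset.mem_singleton, not_or] at hmem
    obtain ⟨h1, h2, h3, h4⟩ := hmem
    apply hx
    have e : d = swap a b * swap (ζ a) (ζ b) := by
      rw [Equiv.swap_apply_apply, hd, hτ]
      group
    rw [e, Perm.mul_apply, Equiv.swap_apply_of_ne_of_ne h3 h4,
      Equiv.swap_apply_of_ne_of_ne h1 h2]
  -- hence `d = 1`
  have hd1 : d = 1 := by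
    by_contra hne
    obtain ⟨x₀, hx₀⟩ : ∃ x, d x ≠ x := by
      by_contra hall
      simp only [not_exists, not_not] at hall
      exact hne (Perm.ext hall)
    have hx₀O : x₀ ∈ O := by
      by_contra h
      exact hx₀ (hfixO d hdQ x₀ h)
    have hsub : O ⊆ ({a, b, ζ a, ζ b} : Finset α) := by
      intro y hy
      obtain ⟨k, hk⟩ := hc.2 x₀ hx₀O y hy
      have := hDQ (c ^ k) (Q.pow_mem hcQ k) x₀ hx₀
      rw [hk] at this
      exact hDsub y this
    have h1 := Finset.card_le_card hsub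
    have h2 : ({a, b, ζ a, ζ b} : Finset α).card ≤ 4 := Finset.card_le_four
    omega
  have hζτ : ζ * τ = τ * ζ := by
    have h1 : τ * ζ * τ * ζ⁻¹ = 1 := hd1
    have h2 : τ * ζ * τ = ζ := by
      rw [mul_inv_eq_one] at h1; exact h1
    calc ζ * τ = (τ * ζ * τ) * τ := by rw [h2]
      _ = τ * ζ * (τ * τ) := by group
      _ = τ * ζ := by rw [hττ, mul_one]
  intro q hq
  rcases hsplit q hq with h | h
  · exact hζc q h
  · have e := hζc _ h
    have : ζ * q * τ = q * ζ * τ := by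
      calc ζ * q * τ = ζ * (q * τ) := by group
        _ = q * τ * ζ := e
        _ = q * (τ * ζ) := by group
        _ = q * (ζ * τ) := by rw [hζτ]
        _ = q * ζ * τ := by group
    exact mul_right_cancel this

theorem lemIndOne_of (hZ : LemZW) (hI : LemInd) : LemIndOne := by
  intro α _ _ Q 𝒪 T O hS hT h𝒪 h8 hDec
  obtain ⟨hQ2, hdisj, hdT, hfix, hpres, hrestr, hO, hTT⟩ := hS
  subst hT
  subst h𝒪
  have hOmem : O ∈ ({O} : Finset (Finset α)) := Finset.mem_singleton_self O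
  obtain ⟨h4, ⟨c, hcQ, hc⟩, a, haO, b, hbO, hab, hτQ⟩ := hO O hOmem
  have hfixO : ∀ w ∈ Q, ∀ x, x ∉ O → w x = x := by
    intro w hw x hx
    apply hfix w hw x (by simp)
    intro O' hO'
    rw [Finset.mem_singleton] at hO'
    subst hO'
    exact hx
  obtain ⟨z₀, hz₀Q, hz₀s, hz₀1, hz₀c, hz₀u⟩ :=
    hZ α Q O c a b hQ2 hfixO hcQ hc h4 haO hbO hab hτQ
  have hP2 : IsPGroup 2 ↥(Q ⊓ alternatingGroup α) := hQ2.to_le inf_le_left
  obtain ⟨z₁, hz₁P, z₂, hz₂P, hz₁1, hz₂1, hz12, hz₁c, hz₂c⟩ :=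
    hI (Perm α) (Q ⊓ alternatingGroup α) hP2 hDec
  have key := indOne_key Q O c a b hfixO hcQ hc h8 hab hτQ
  have h1 := hz₀u z₁ hz₁P.1 (key z₁ hz₁P hz₁c)
  have h2 := hz₀u z₂ hz₂P.1 (key z₂ hz₂P hz₂c)
  rcases h1 with h1 | h1
  · exact hz₁1 h1
  rcases h2 with h2 | h2
  · exact hz₂1 h2
  exact hz12 (h1.trans h2.symm)

end Cfsg.Agent.Lib.Helper34.SY
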